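import Cfsg.Agent.H891.DG.Defs

/-!
# S4180: Nielsen moves (helper157)

* `lift_of_rel` : to lift all pairs modulo `N` it is enough to lift the pairs whose first member has exponent zero;
* `isCyclic_ringAut` : the automorphism group of a finite field is cyclic;
* `cos2_congr` : `Cos2` is invariant under isomorphisms.
-/

set_option autoImplicit false

namespace Cfsg.Agent.H157.DG

open Cfsg.Agent.H891.Gen Cfsg.Agent.H891.DG Subgroup

universe u v

section Nielsen

variable {G : Type u} [Group G] {N : Subgroup G} [N.Normal] {x y : G}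

theorem lift_mul (h : Lift N x (y * x)) : Lift N x y := by
  obtain ⟨s, hs, t, ht, h⟩ := h
  refine ⟨s, hs, x * (t * s⁻¹) * x⁻¹, (inferInstance : N.Normal).conj_mem _ (N.mul_mem ht (N.inv_mem hs)) x,
    h.trans ?_⟩
  rw [closure_le]
  have h1 : x * s ∈ closure ({x * s, y * (x * (t * s⁻¹) * x⁻¹)} : Set G) := subset_closure (by simp)
  have h2 : y * (x * (t * s⁻¹) * x⁻¹) ∈ closure ({x * s, y * (x * (t * s⁻¹) * x⁻¹)} : Set G) :=
    subset_closure (by simp)
  rintro z (rfl | hz)
  · exact h1
  · rw [Set.mem_singleton_iff] at hz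
    subst hz
    have h3 := mul_mem h2 h1
    have e : y * (x * (t * s⁻¹) * x⁻¹) * (x * s) = y * x * t := by group
    rwa [e] at h3

theorem lift_mul_inv (h : Lift N x (y * x⁻¹)) : Lift N x y := by
  obtain ⟨s, hs, t, ht, h⟩ := h
  refine ⟨s, hs, x⁻¹ * t * x * s, N.mul_mem ?_ hs, h.trans ?_⟩
  · have := (inferInstance : N.Normal).conj_mem _ ht x⁻¹
    rwa [inv_inv] at this
  rw [closure_le]
  have h1 : x * s ∈ closure ({x * s, y * (x⁻¹ * t * x * s)} : Set G) := subset_closure (by simp)
  have h2 : y * (x⁻¹ * t * x * s) ∈ closure ({x * s, y * (x⁻¹ * t * x * s)} : Set G) :=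
    subset_closure (by simp)
  rintro z (rfl | hz)
  · exact h1
  · rw [Set.mem_singleton_iff] at hz
    subst hz
    have h3 := mul_mem h2 (inv_mem h1)
    have e : y * (x⁻¹ * t * x * s) * (x * s)⁻¹ = y * x⁻¹ * t := by group
    rwa [e] at h3

/-- **Euclid's algorithm.**  `P x a` : the exponent of `x` is `a`. -/
theorem lift_of_rel (P : G → ℤ → Prop) (hinv : ∀ x a, P x a → P x⁻¹ (-a))
    (hmul : ∀ x y a b, P x a → P y b → P (x * y) (a + b))
    (h0 : ∀ x y b, P x 0 → P y b → Lift N x y) :
    ∀ x y a b, P x a → P y b → Lift N x y := by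
  have key : ∀ n : ℕ, ∀ x y a b, P x a → P y b → a.natAbs + b.natAbs ≤ n → Lift N x y := by
    intro n
    induction n with
    | zero =>
      intro x y a b ha hb hn
      have : a = 0 := by omega
      subst this
      exact h0 x y b ha hb
    | succ n ih =>
      have red : ∀ x y a b, P x a → P y b → a.natAbs + b.natAbs ≤ n + 1 → a ≠ 0 → b ≠ 0 →
          a.natAbs ≤ b.natAbs → Lift N x y := by
        intro x y a b ha hb hn ha0 hb0 hab
        by_cases hs : (0 < a ∧ 0 < b) ∨ (a < 0 ∧ b < 0)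
        · refine lift_mul_inv (ih x (y * x⁻¹) a (b + -a) ha (hmul _ _ _ _ hb (hinv _ _ ha)) ?_)
          omega
        · refine lift_mul (ih x (y * x) a (b + a) ha (hmul _ _ _ _ hb ha) ?_)
          omega
      intro x y a b ha hb hn
      by_cases ha0 : a = 0
      · subst ha0
        exact h0 x y b ha hb
      by_cases hb0 : b = 0
      · subst hb0
        exact (h0 y x a hb ha).symm
      rcases le_total a.natAbs b.natAbs with hab | hab
      · exact red x y a b ha hb hn ha0 hb0 hab
      · exact (red y x b a hb ha (by omega) hb0 ha0 hab).symm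
  intro x y a b ha hb
  exact key _ x y a b ha hb le_rfl

end Nielsen

/-- the automorphism group of a finite field is cyclic -/
theorem isCyclic_ringAut {K : Type*} [Field K] [Finite K] : IsCyclic (K ≃+* K) := by
  obtain ⟨p, hp⟩ := CharP.exists K
  have hpp : Nat.Prime p := (CharP.char_is_prime_or_zero K p).resolve_right (CharP.char_ne_zero_of_finite K p)
  have : Fact p.Prime := ⟨hpp⟩
  let _ : Algebra (ZMod p) K := ZMod.algebra K p
  let e : (K ≃ₐ[ZMod p] K) ≃* (K ≃+* K) :=
    { toFun := fun τ => τ.toRingEquiv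
      invFun := fun τ => AlgEquiv.ofRingEquiv (f := τ) (fun r => by
        have : (τ : K →+* K).comp (algebraMap (ZMod p) K) = algebraMap (ZMod p) K := Subsingleton.elim _ _
        exact congrArg (fun g : ZMod p →+* K => g r) this)
      left_inv := fun τ => by ext; rfl
      right_inv := fun τ => by ext; rfl
      map_mul' := fun τ τ' => rfl }
  exact isCyclic_of_surjective e e.surjective

/-- every automorphism of a finite field is a power of one of them -/
theorem exists_gen (K : Type*) [Field K] [Finite K] : ∃ σ : K ≃+* K, ∀ τ : K ≃+* K, ∃ a : ℤ, τ = σ ^ a := by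
  have : IsCyclic (K ≃+* K) := isCyclic_ringAut
  obtain ⟨σ, hσ⟩ := IsCyclic.exists_generator (α := K ≃+* K)
  refine ⟨σ, fun τ => ?_⟩
  obtain ⟨a, ha⟩ := hσ τ
  exact ⟨a, ha.symm⟩

theorem conj_apply_mul {G : Type*} [Group G] (f : MulAut G) (g : G) :
    f * MulAut.conj g * f⁻¹ = MulAut.conj (f g) := by
  ext y
  show f (g * f⁻¹ y * g⁻¹) = f g * y * (f g)⁻¹
  rw [map_mul, map_mul, map_inv, MulAut.apply_inv_self]

instance inn_normal {G : Type*} [Group G] : (MulAut.conj : G →* MulAut G).range.Normal := by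
  refine ⟨?_⟩
  rintro _ ⟨g, rfl⟩ f
  exact ⟨f g, (conj_apply_mul f g).symm⟩

theorem cos2_congr {T : Type u} {T' : Type v} [Group T] [Group T'] (e : T ≃* T') (h : Cos2 T) : Cos2 T' := by
  let E : MulAut T →* MulAut T' :=
    { toFun := fun f => (e.symm.trans f).trans e
      map_one' := by ext x; simp
      map_mul' := fun f g => by ext x; simp }
  have hE : ∀ (f : MulAut T) (x : T'), E f x = e (f (e.symm x)) := fun f x => rfl
  have hEc : ∀ g : T, E (MulAut.conj g) = MulAut.conj (e g) := by
    intro g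
    ext x
    rw [hE, MulAut.conj_apply, map_mul, map_mul, map_inv, e.apply_symm_apply]
    rfl
  have hEs : ∀ f : MulAut T', ∃ g, E g = f := by
    intro f
    refine ⟨(e.trans f).trans e.symm, ?_⟩
    ext x
    rw [hE]
    simp
  intro x' y'
  obtain ⟨x, rfl⟩ := hEs x'
  obtain ⟨y, rfl⟩ := hEs y'
  obtain ⟨_, ⟨s, rfl⟩, _, ⟨t, rfl⟩, h1⟩ := h x y
  refine ⟨E (MulAut.conj s), ⟨e s, (hEc s).symm⟩, E (MulAut.conj t), ⟨e t, (hEc t).symm⟩, ?_⟩
  have h2 := Subgroup.map_mono (f := E) h1
  rw [MonoidHom.map_closure, Set.image_pair, map_mul, map_mul] at h2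
  refine le_trans ?_ h2
  rintro _ ⟨g, rfl⟩
  refine ⟨MulAut.conj (e.symm g), ⟨_, rfl⟩, ?_⟩
  rw [hEc, e.apply_symm_apply]

end Cfsg.Agent.H157.DG
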