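import Cfsg.Agent.H136.TwE6
import Cfsg.Agent.H166.OutTwESix
import Cfsg.Agent.H891.DG.Defs

/-!
# S4180, task C18: `Cos2` for `²E₆(q)` (helper157)
-/

set_option autoImplicit false
set_option linter.unusedSectionVars false
set_option maxHeartbeats 400000

namespace Cfsg.Agent.H157.DG.TwE6

open Cfsg.Lie Cfsg.Agent.ChevalleyStructure.TwE6Basic
open Cfsg.Agent.ChevalleyStructure.Elts (hG nG xG coe_hG coe_xG hG_def nG_def)
open Cfsg.Agent.H136.TwE6 (W w w_conj rho_W c56 x_56_36 x_36_56 sg56 sg36 fix56 W_vals mem40 commutator_eq eps40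
  P P_add P_zero P_inv P_inj XS w_mem hG_conj)
open Cfsg.Agent.ChevStructure.FieldMap (glEquiv)
open Cfsg.Agent.CpAut.RgdTwStd (glE_mul glE_one glE_xG coe_fldG)
open Cfsg.Agent.CpAut.RgdTwE6 (st)
open Cfsg.Agent.H70.ChevDiag (dG dG_conj IsMul)
open Cfsg.Agent.H166.TwDiag (dgA coe_dgA)
open Cfsg.Agent.H166.OutTwESix (Ok conj_mem conj_mem')

universe u

variable {K : Type u} [Field K]

/-! ### matrices acting on the root groups by scalars -/

/-- `d` acts on every root group by a scalar -/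
def Sc (d : GL chevE6.Idx K) : Prop := ∀ s : Fin 72, ∃ κ : K, ∀ a, d * x s.val a * d⁻¹ = x s.val (κ * a)

theorem twisted_le_of {q : ℕ} {L : Subgroup (GL chevE6.Idx K)} (h : ∀ (s : Fin 72) (a : K), x s.val a ∈ L) :
    twistedE6 K q ≤ L := by
  rw [twisted_le_iff]
  constructor
  · intro t _ r hr
    have : r < 72 := by
      simp only [List.mem_cons, List.not_mem_nil, or_false] at hr
      omega
    exact h ⟨r, this⟩ t
  · intro t rs hr
    have : rs.1 < 72 ∧ rs.2 < 72 := by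
      simp only [List.mem_cons, List.not_mem_nil, or_false] at hr
      rcases hr with rfl | rfl | rfl | rfl <;> decide
    exact L.mul_mem (h ⟨rs.1, this.1⟩ _) (h ⟨rs.2, this.2⟩ _)

theorem Sc.comm {d d' : GL chevE6.Idx K} (h : Sc d) (h' : Sc d') {q : ℕ} {g : GL chevE6.Idx K}
    (hg : g ∈ twistedE6 K q) : d * (d' * g * d'⁻¹) * d⁻¹ = d' * (d * g * d⁻¹) * d'⁻¹ := by
  let L : Subgroup (GL chevE6.Idx K) :=
    (MulAut.conj (d * d')).toMonoidHom.eqLocus (MulAut.conj (d' * d)).toMonoidHom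
  have hL : twistedE6 K q ≤ L := by
    refine twisted_le_of fun s a => ?_
    show (d * d') * x s.val a * (d * d')⁻¹ = (d' * d) * x s.val a * (d' * d)⁻¹
    obtain ⟨κ, hk⟩ := h s
    obtain ⟨κ', hk'⟩ := h' s
    have e1 : (d * d') * x s.val a * (d * d')⁻¹ = d * (d' * x s.val a * d'⁻¹) * d⁻¹ := by group
    have e2 : (d' * d) * x s.val a * (d' * d)⁻¹ = d' * (d * x s.val a * d⁻¹) * d'⁻¹ := by group
    rw [e1, e2, hk, hk', hk, hk']
    congr 1
    ring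
  have h1 := hL hg
  change (d * d') * g * (d * d')⁻¹ = (d' * d) * g * (d' * d)⁻¹ at h1
  have e1 : (d * d') * g * (d * d')⁻¹ = d * (d' * g * d'⁻¹) * d⁻¹ := by group
  have e2 : (d' * d) * g * (d' * d)⁻¹ = d' * (d * g * d⁻¹) * d'⁻¹ := by group
  rw [← e1, ← e2, h1]

/-! ### the semilinear monomial map -/

/-- the map `g ↦ w d τ(g) d⁻¹ w⁻¹` -/
noncomputable def Psi (χ : ℕ → Kˣ) (τ : K ≃+* K) : GL chevE6.Idx K ≃* GL chevE6.Idx K :=
  (glEquiv chevE6 τ).trans (MulAut.conj (w K * dG chevE6 χ))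

theorem Psi_apply (χ : ℕ → Kˣ) (τ : K ≃+* K) (g : GL chevE6.Idx K) :
    Psi χ τ g = w K * (dG chevE6 χ * glEquiv chevE6 τ g * (dG chevE6 χ)⁻¹) * (w K)⁻¹ := by
  show (w K * dG chevE6 χ) * glEquiv chevE6 τ g * (w K * dG chevE6 χ)⁻¹ = _
  group

theorem Psi_x {χ : ℕ → Kˣ} (hM : IsMul chevE6 χ) (τ : K ≃+* K) (s : Fin 72) : ∃ κ : K, κ ≠ 0 ∧
    ∀ a, Psi χ τ (x s.val a) = x (W s).val (κ * τ a) := by
  obtain ⟨η, hη, h1⟩ := w_conj (K := K) s
  refine ⟨η * (χ s.val : K), mul_ne_zero hη (χ s.val).ne_zero, fun a => ?_⟩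
  rw [Psi_apply, glE_xG, dG_conj hE6 hM, h1]
  congr 1
  ring

theorem W_surj (s : Fin 72) : ∃ r, W r = s := by
  refine ⟨wP 3 (wP 2 (wP 1 (wP 0 s))), ?_⟩
  have h : ∀ (i : Fin 4) (r : Fin 72), wP i (wP i r) = r := by
    intro i r
    apply Fin.ext
    rw [wP_val, wP_val]
    exact wp_wp i r
  unfold W
  rw [h, h, h, h]

theorem Psi_Sc {χ : ℕ → Kˣ} (hM : IsMul chevE6 χ) (τ : K ≃+* K) {d : GL chevE6.Idx K} (hd : Sc d) :
    Sc (Psi χ τ d) := by
  intro s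
  obtain ⟨r, rfl⟩ := W_surj s
  obtain ⟨κ, hκ, h1⟩ := Psi_x hM τ r
  obtain ⟨μ, hμ⟩ := hd r
  refine ⟨τ μ, fun a => ?_⟩
  have e : x (W r).val a = Psi χ τ (x r.val (τ.symm (κ⁻¹ * a))) := by
    rw [h1, τ.apply_symm_apply, mul_inv_cancel_left₀ hκ]
  rw [e, ← map_inv, ← map_mul, ← map_mul, hμ, h1, map_mul, τ.apply_symm_apply]
  congr 1
  rw [mul_left_comm, mul_inv_cancel_left₀ hκ]

/-! ### the torus elements -/

section Tor

variable (φ : K →+* K)

/-- the short root elements of the node 2 -/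
def Q (t : K) : GL chevE6.Idx K := x 42 t * x 37 (φ t)

/-- the torus element acting by `t` on both short nodes -/
def hh (t : K) : GL chevE6.Idx K := (hG hE6 56 t * hG hE6 36 (φ t)) * (hG hE6 42 t * hG hE6 37 (φ t))

theorem hh_conj {s : ℕ} (hs : s < 72) {c : K} (hc : c ≠ 0) (t : K) : hh φ c * x s t * (hh φ c)⁻¹ =
    x s (c ^ (chevE6.cartan 0 s) * ((φ c) ^ (chevE6.cartan 5 s) * (c ^ (chevE6.cartan 2 s) *
      ((φ c) ^ (chevE6.cartan 4 s) * t)))) := by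
  have hc' : φ c ≠ 0 := (map_ne_zero φ).2 hc
  have e : hh φ c * x s t * (hh φ c)⁻¹ =
      hG hE6 (chevE6.simple 0) c * (hG hE6 (chevE6.simple 5) (φ c) * (hG hE6 (chevE6.simple 2) c *
        (hG hE6 (chevE6.simple 4) (φ c) * x s t * (hG hE6 (chevE6.simple 4) (φ c))⁻¹) *
        (hG hE6 (chevE6.simple 2) c)⁻¹) * (hG hE6 (chevE6.simple 5) (φ c))⁻¹) *
        (hG hE6 (chevE6.simple 0) c)⁻¹ := by
    show (hG hE6 56 c * hG hE6 36 (φ c)) * (hG hE6 42 c * hG hE6 37 (φ c)) * x s t *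
      ((hG hE6 56 c * hG hE6 36 (φ c)) * (hG hE6 42 c * hG hE6 37 (φ c)))⁻¹ =
      hG hE6 56 c * (hG hE6 36 (φ c) * (hG hE6 42 c * (hG hE6 37 (φ c) * x s t * (hG hE6 37 (φ c))⁻¹) *
        (hG hE6 42 c)⁻¹) * (hG hE6 36 (φ c))⁻¹) * (hG hE6 56 c)⁻¹
    group
  rw [e, hG_conj (by norm_num) hs hc', hG_conj (by norm_num) hs hc, hG_conj (by norm_num) hs hc',
    hG_conj (by norm_num) hs hc]

theorem cartan_tab : chevE6.cartan 0 56 = 2 ∧ chevE6.cartan 5 56 = 0 ∧ chevE6.cartan 2 56 = -1 ∧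
    chevE6.cartan 4 56 = 0 ∧ chevE6.cartan 0 36 = 0 ∧ chevE6.cartan 5 36 = 2 ∧ chevE6.cartan 2 36 = 0 ∧
    chevE6.cartan 4 36 = -1 ∧ chevE6.cartan 0 42 = -1 ∧ chevE6.cartan 5 42 = 0 ∧ chevE6.cartan 2 42 = 2 ∧
    chevE6.cartan 4 42 = 0 ∧ chevE6.cartan 0 37 = 0 ∧ chevE6.cartan 5 37 = -1 ∧ chevE6.cartan 2 37 = 0 ∧
    chevE6.cartan 4 37 = 2 := by decide +kernel

theorem pow_aux {c : K} (hc : c ≠ 0) (t : K) : c ^ (2 : ℤ) * (c ^ (-1 : ℤ) * t) = c * t ∧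
    c ^ (-1 : ℤ) * (c ^ (2 : ℤ) * t) = c * t := by
  rw [zpow_neg_one]
  have z2 : c ^ (2 : ℤ) = c * c := by
    have : (2 : ℤ) = 1 + 1 := rfl
    rw [this, zpow_add₀ hc, zpow_one]
  rw [z2]
  constructor
  · rw [mul_assoc, mul_inv_cancel_left₀ hc]
  · rw [mul_assoc, inv_mul_cancel_left₀ hc]

variable {φ}

theorem hh_tab {c : K} (hc : c ≠ 0) (t : K) :
    hh φ c * x 56 t * (hh φ c)⁻¹ = x 56 (c * t) ∧ hh φ c * x 36 t * (hh φ c)⁻¹ = x 36 (φ c * t) ∧
    hh φ c * x 42 t * (hh φ c)⁻¹ = x 42 (c * t) ∧ hh φ c * x 37 t * (hh φ c)⁻¹ = x 37 (φ c * t) := by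
  have hc' : φ c ≠ 0 := (map_ne_zero φ).2 hc
  obtain ⟨a1, a2, a3, a4, b1, b2, b3, b4, c1, c2, c3, c4, d1, d2, d3, d4⟩ := cartan_tab
  refine ⟨?_, ?_, ?_, ?_⟩
  · rw [hh_conj φ (by norm_num) hc, a1, a2, a3, a4]; simp only [zpow_zero, one_mul, (pow_aux hc t).1]
  · rw [hh_conj φ (by norm_num) hc, b1, b2, b3, b4]; simp only [zpow_zero, one_mul, (pow_aux hc' t).1]
  · rw [hh_conj φ (by norm_num) hc, c1, c2, c3, c4]; simp only [zpow_zero, one_mul, (pow_aux hc t).2]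
  · rw [hh_conj φ (by norm_num) hc, d1, d2, d3, d4]; simp only [zpow_zero, one_mul, (pow_aux hc' t).2]

theorem conj_conj {G : Type*} [Group G] (a b y : G) : a * b * y * (a * b)⁻¹ = a * (b * y * b⁻¹) * a⁻¹ := by group

theorem Sc_d {χ : ℕ → Kˣ} (hM : IsMul chevE6 χ) {c : K} (hc : c ≠ 0) : Sc (dG chevE6 χ * hh φ c) := by
  intro s
  refine ⟨(χ s.val : K) * (c ^ (chevE6.cartan 0 s) * ((φ c) ^ (chevE6.cartan 5 s) * (c ^ (chevE6.cartan 2 s) *
      ((φ c) ^ (chevE6.cartan 4 s))))), fun a => ?_⟩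
  rw [conj_conj, hh_conj φ s.isLt hc, dG_conj hE6 hM]
  congr 1
  ring

theorem d_P {q : ℕ} (hφ : ∀ t, φ t = t ^ q) {χ : ℕ → Kˣ} (hM : IsMul chevE6 χ) (h : Ok q χ) {c : K} (hc : c ≠ 0)
    (a : K) : (dG chevE6 χ * hh φ c) * P φ a * (dG chevE6 χ * hh φ c)⁻¹ = P φ ((χ 56 : K) * c * a) := by
  have e1 : (χ 36 : K) = φ (χ 56 : K) := by
    have : χ 36 = χ 56 ^ q := h.2 (56, 36) (by simp)
    rw [this, hφ, Units.val_pow_eq_pow_val]
  have e : ∀ g y z : GL chevE6.Idx K, g * (y * z) * g⁻¹ = (g * y * g⁻¹) * (g * z * g⁻¹) := by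
    intro g y z; group
  unfold P
  rw [e, conj_conj, conj_conj, (hh_tab hc _).1, (hh_tab hc _).2.1, dG_conj hE6 hM, dG_conj hE6 hM, e1, map_mul,
    map_mul, mul_assoc, mul_assoc]

theorem d_Q {q : ℕ} (hφ : ∀ t, φ t = t ^ q) {χ : ℕ → Kˣ} (hM : IsMul chevE6 χ) (h : Ok q χ) {c : K} (hc : c ≠ 0)
    (a : K) : (dG chevE6 χ * hh φ c) * Q φ a * (dG chevE6 χ * hh φ c)⁻¹ = Q φ ((χ 42 : K) * c * a) := by
  have e1 : (χ 37 : K) = φ (χ 42 : K) := by
    have : χ 37 = χ 42 ^ q := h.2 (42, 37) (by simp)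
    rw [this, hφ, Units.val_pow_eq_pow_val]
  have e : ∀ g y z : GL chevE6.Idx K, g * (y * z) * g⁻¹ = (g * y * g⁻¹) * (g * z * g⁻¹) := by
    intro g y z; group
  unfold Q
  rw [e, conj_conj, conj_conj, (hh_tab hc _).2.2.1, (hh_tab hc _).2.2.2, dG_conj hE6 hM, dG_conj hE6 hM, e1, map_mul,
    map_mul, mul_assoc, mul_assoc]

end Tor

/-! ### the root elements of the class of 40 -/

section Forty

variable {q : ℕ} {φ : K →+* K} (hφ : ∀ t, φ t = t ^ q) (hqq : ∀ t : K, (t ^ q) ^ q = t)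

include hφ hqq in
theorem exists_orbit (k : ℕ) (a : K) : ∃ b : K, x (W^[k] 36).val a * x (W^[k] 56).val b ∈ twistedE6 K q := by
  induction k generalizing a with
  | zero =>
    refine ⟨φ a, ?_⟩
    show x 36 a * x 56 (φ a) ∈ _
    have h1 := pair_mem (K := K) (q := q) (φ a) (rs := (56, 36)) (by simp)
    have h2 : (φ a) ^ q = a := by rw [hφ, hqq]
    rw [h2] at h1
    change x 56 (φ a) * x 36 a ∈ _ at h1
    rwa [c56]
  | succ k ih =>
    obtain ⟨η, hη, h1⟩ := w_conj (K := K) (W^[k] 36)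
    obtain ⟨η', hη', h2⟩ := w_conj (K := K) (W^[k] 56)
    obtain ⟨b, hb⟩ := ih (η⁻¹ * a)
    have hw := w_mem (K := K) hφ
    have h3 := mul_mem (mul_mem hw hb) (inv_mem hw)
    refine ⟨η' * b, ?_⟩
    have e : w K * (x (W^[k] 36).val (η⁻¹ * a) * x (W^[k] 56).val b) * (w K)⁻¹ =
        (w K * x (W^[k] 36).val (η⁻¹ * a) * (w K)⁻¹) * (w K * x (W^[k] 56).val b * (w K)⁻¹) := by group
    rw [e, h1, h2, mul_inv_cancel_left₀ hη] at h3
    rw [Function.iterate_succ_apply', Function.iterate_succ_apply']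
    exact h3

include hφ hqq in
theorem orbit_inj (k : ℕ) (a : K) (h : x (W^[k] 56).val a ∈ fix φ) : a = 0 := by
  induction k generalizing a with
  | zero =>
    change x 56 a ∈ fix φ at h
    rw [mem_fix, sg56] at h
    exact x_56_36 h.symm
  | succ k ih =>
    obtain ⟨η, hη, h1⟩ := w_conj (K := K) (W^[k] 56)
    rw [Function.iterate_succ_apply'] at h
    have hw : w K ∈ fix φ := twisted_le_fix φ hφ hqq (w_mem (K := K) hφ)
    have h2 : x (W^[k] 56).val (η⁻¹ * a) = (w K)⁻¹ * x (W (W^[k] 56)).val a * w K := by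
      have := h1 (η⁻¹ * a)
      rw [mul_inv_cancel_left₀ hη] at this
      rw [← this]; group
    have h3 := ih (η⁻¹ * a) (by rw [h2]; exact mul_mem (mul_mem (inv_mem hw) h) hw)
    exact (mul_eq_zero.1 h3).resolve_left (inv_ne_zero hη)

theorem W8 : W^[8] 36 = 40 ∧ W^[8] 56 = 43 := by decide +kernel

include hφ hqq in
theorem mem40S (t : K) : x 40 t * x 43 (-φ t) ∈ twistedE6 K q := by
  have hφφ : ∀ t, φ (φ t) = t := by intro t; rw [hφ, hφ, hqq]
  obtain ⟨b, hb⟩ := exists_orbit hφ hqq 8 t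
  rw [W8.1, W8.2] at hb
  change x 40 t * x 43 b ∈ twistedE6 K q at hb
  have h1 := twisted_le_fix φ hφ hqq hb
  have h2 := mem40 (K := K) (φ := φ) hφφ t
  have h3 : x 43 (-(-φ t) + b) ∈ fix φ := by
    have h4 := mul_mem (inv_mem h2) h1
    have e : (x 40 t * x 43 (-φ t))⁻¹ * (x 40 t * x 43 b) = x 43 (-(-φ t) + b) := by
      rw [← x_add, ← x_inv]; group
    rwa [e] at h4
  have h5 : -(-φ t) + b = 0 := by
    refine orbit_inj hφ hqq 8 _ ?_
    rw [W8.2]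
    exact h3
  have h6 : b = -φ t := by
    rw [neg_neg] at h5
    exact eq_neg_of_add_eq_zero_right h5
  rwa [h6] at hb

end Forty

/-! ### closure steps in `Aut S` -/

section Steps

variable {q : ℕ} {φ : K →+* K} {χ : ℕ → Kˣ} (hM : IsMul chevE6 χ) (τ : K ≃+* K)

/-- the elements of `S` inducing elements of `M`, as a subgroup of the general linear group -/
def Lo (M : Subgroup (MulAut ↥(twistedE6 K q))) : Subgroup (GL chevE6.Idx K) :=
  (M.comap (MulAut.conj : ↥(twistedE6 K q) →* _)).map (twistedE6 K q).subtype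

theorem mem_Lo {M : Subgroup (MulAut ↥(twistedE6 K q))} {g : GL chevE6.Idx K} :
    g ∈ Lo M ↔ ∃ hg : g ∈ twistedE6 K q, MulAut.conj (⟨g, hg⟩ : ↥(twistedE6 K q)) ∈ M := by
  constructor
  · rintro ⟨y, hy, rfl⟩
    exact ⟨y.2, hy⟩
  · rintro ⟨hg, h⟩
    exact ⟨⟨g, hg⟩, h, rfl⟩

theorem conj_apply_mul {G : Type*} [Group G] (f : MulAut G) (g : G) :
    f * MulAut.conj g * f⁻¹ = MulAut.conj (f g) := by
  ext y
  show f (g * f⁻¹ y * g⁻¹) = f g * y * (f g)⁻¹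
  rw [map_mul, map_mul, map_inv, MulAut.apply_inv_self]

theorem Lo_map {M : Subgroup (MulAut ↥(twistedE6 K q))} {Ψ : MulAut ↥(twistedE6 K q)} (hΨM : Ψ ∈ M)
    {F : GL chevE6.Idx K ≃* GL chevE6.Idx K} (hF : ∀ g : ↥(twistedE6 K q), ((Ψ g : ↥(twistedE6 K q)) : GL chevE6.Idx K) = F g)
    {g : GL chevE6.Idx K} (hg : g ∈ Lo M) : F g ∈ Lo M := by
  obtain ⟨h1, h2⟩ := mem_Lo.1 hg
  refine ⟨Ψ ⟨g, h1⟩, ?_, hF _⟩
  show MulAut.conj (Ψ ⟨g, h1⟩) ∈ M
  rw [← conj_apply_mul]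
  exact M.mul_mem (M.mul_mem hΨM h2) (M.inv_mem hΨM)

/-- membership of the short root group of `r` -/
def Short (M : Subgroup (MulAut ↥(twistedE6 K q))) (r : Fin 72) : Prop :=
  ∀ a b : K, x r.val a * x (rho r).val b ∈ twistedE6 K q → x r.val a * x (rho r).val b ∈ Lo M

/-- membership of the long root group of `r` -/
def Long (M : Subgroup (MulAut ↥(twistedE6 K q))) (r : Fin 72) : Prop :=
  ∀ a : K, x r.val a ∈ twistedE6 K q → x r.val a ∈ Lo M

variable {M : Subgroup (MulAut ↥(twistedE6 K q))} {Ψ : MulAut ↥(twistedE6 K q)} (hΨM : Ψ ∈ M)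
  (hΨ : ∀ g : ↥(twistedE6 K q), ((Ψ g : ↥(twistedE6 K q)) : GL chevE6.Idx K) = Psi χ τ g)

include hΨ in
theorem preimage {g : GL chevE6.Idx K} (hg : Psi χ τ g ∈ twistedE6 K q) : g ∈ twistedE6 K q := by
  have h1 := hΨ (Ψ⁻¹ ⟨Psi χ τ g, hg⟩)
  rw [MulAut.apply_inv_self] at h1
  have h2 : g = (Ψ⁻¹ ⟨Psi χ τ g, hg⟩ : ↥(twistedE6 K q)) := (Psi χ τ).injective h1
  rw [h2]
  exact (Ψ⁻¹ ⟨Psi χ τ g, hg⟩ : ↥(twistedE6 K q)).2

include hM hΨM hΨ in
theorem Short.step {r : Fin 72} (h : Short M r) : Short M (W r) := by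
  intro a b hab
  obtain ⟨κ, hκ, h1⟩ := Psi_x hM τ r
  obtain ⟨κ', hκ', h2⟩ := Psi_x hM τ (rho r)
  rw [rho_W] at hab ⊢
  have e : Psi χ τ (x r.val (τ.symm (κ⁻¹ * a)) * x (rho r).val (τ.symm (κ'⁻¹ * b))) =
      x (W r).val a * x (W (rho r)).val b := by
    rw [map_mul, h1, h2, τ.apply_symm_apply, τ.apply_symm_apply, mul_inv_cancel_left₀ hκ,
      mul_inv_cancel_left₀ hκ']
  rw [← e] at hab ⊢
  exact Lo_map hΨM hΨ (h _ _ (preimage τ hΨ hab))

include hM hΨM hΨ in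
theorem Long.step {r : Fin 72} (h : Long M r) : Long M (W r) := by
  intro a hab
  obtain ⟨κ, hκ, h1⟩ := Psi_x hM τ r
  have e : Psi χ τ (x r.val (τ.symm (κ⁻¹ * a))) = x (W r).val a := by
    rw [h1, τ.apply_symm_apply, mul_inv_cancel_left₀ hκ]
  rw [← e] at hab ⊢
  exact Lo_map hΨM hΨ (h _ (preimage τ hΨ hab))

include hM hΨM hΨ in
theorem Short.iter {r : Fin 72} (h : Short M r) (k : ℕ) : Short M (W^[k] r) := by
  induction k with
  | zero => exact h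
  | succ k ih =>
    rw [Function.iterate_succ_apply']
    exact Short.step hM τ hΨM hΨ ih

include hM hΨM hΨ in
theorem Long.iter {r : Fin 72} (h : Long M r) (k : ℕ) : Long M (W^[k] r) := by
  induction k with
  | zero => exact h
  | succ k ih =>
    rw [Function.iterate_succ_apply']
    exact Long.step hM τ hΨM hΨ ih

theorem long39 (hφ : ∀ t, φ t = t ^ q) (hqq : ∀ t : K, (t ^ q) ^ q = t) (htr : ∀ v, φ v = v → ∃ t, t + φ t = v)
    (h40 : Short M 40) (h29 : Short M 29) : Long M 39 := by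
  obtain ⟨e1, e2, r1, r2⟩ := eps40
  have r3 : rho 29 = 34 := by decide +kernel
  intro v hv
  have hv' : φ v = v := by
    have hv0 := twisted_le_fix φ hφ hqq hv
    have h2 := sg_x_class φ (i := 1) (r := 39) (by decide +kernel) v
    have r4 : rho 39 = 39 := by decide +kernel
    rw [r4] at h2
    change sg φ (x 39 v) = x 39 (φ v) at h2
    change x 39 v ∈ fix φ at hv0
    rw [mem_fix, h2] at hv0
    exact x_injective (by norm_num) hv0
  obtain ⟨t, ht⟩ := htr v hv'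
  have h3 := h40 t (-φ t) (by rw [r1]; exact mem40S hφ hqq t)
  have h1 : x 29 (1 : K) * x 34 1 ∈ twistedE6 K q := by
    have := pair_mem (K := K) (q := q) (1 : K) (rs := (29, 34)) (by simp)
    rwa [one_pow] at this
  have h4 := h29 1 1 (by rw [r3]; exact h1)
  rw [r1] at h3
  rw [r3] at h4
  have h5 := (Lo M).mul_mem ((Lo M).mul_mem ((Lo M).mul_mem h4 h3) ((Lo M).inv_mem h4)) ((Lo M).inv_mem h3)
  change (x 29 1 * x 34 1) * (x 40 t * x 43 (-φ t)) * (x 29 1 * x 34 1)⁻¹ * (x 40 t * x 43 (-φ t))⁻¹ ∈ Lo M at h5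
  rw [commutator_eq, sub_neg_eq_add, ht] at h5
  exact h5

include hM hΨM hΨ in
/-- the closure steps -/
theorem le_Lo [Fintype K] (hφ : ∀ t, φ t = t ^ q) (hqq : ∀ t : K, (t ^ q) ^ q = t) (hq2 : 2 ≤ q)
    (hK : Fintype.card K = q ^ 2) (hP : ∀ a, P φ a ∈ Lo M) : twistedE6 K q ≤ Lo M := by
  obtain ⟨w1, w2, w3, w4, w5, w6, w7, r1, r2, r3, r4⟩ := W_vals
  have hfix := twisted_le_fix φ hφ hqq
  have h36 : Short M 36 := by
    intro a b hab
    rw [r4] at hab ⊢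
    change x 36 a * x 56 b ∈ twistedE6 K q at hab
    change x 36 a * x 56 b ∈ Lo M
    rw [c56] at hab ⊢
    rw [fix56 (hfix hab)]
    exact hP b
  have h29 : Short M 29 := by rw [← w1]; exact Short.iter hM τ hΨM hΨ h36 5
  have h15 : Short M 15 := by rw [← w2]; exact Short.iter hM τ hΨM hΨ h36 6
  have h40 : Short M 40 := by rw [← w3]; exact Short.iter hM τ hΨM hΨ h36 8
  have h37 : Short M 37 := by rw [← w4]; exact Short.iter hM τ hΨM hΨ h36 11
  have h39 : Long M 39 :=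
    long39 hφ hqq (fun v hv => Cfsg.Agent.H136.FieldLem.exists_trace_two hq2 hK φ hφ hv) h40 h29
  have h25 : Long M 25 := by rw [← w5]; exact Long.iter hM τ hΨM hΨ h39 5
  have h32 : Long M 32 := by rw [← w6]; exact Long.iter hM τ hΨM hΨ h39 6
  have h46 : Long M 46 := by rw [← w7]; exact Long.iter hM τ hΨM hΨ h39 11
  rw [twisted_le_iff]
  constructor
  · intro t ht r hr
    have hf : x r t ∈ twistedE6 K q := single_mem ht hr
    simp only [List.mem_cons, List.not_mem_nil, or_false] at hr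
    rcases hr with rfl | rfl | rfl | rfl
    · exact h46 t hf
    · exact h25 t hf
    · exact h39 t hf
    · exact h32 t hf
  · intro t rs hr
    have hf : x rs.1 t * x rs.2 (t ^ q) ∈ twistedE6 K q := pair_mem t hr
    simp only [List.mem_cons, List.not_mem_nil, or_false] at hr
    rcases hr with rfl | rfl | rfl | rfl
    · rw [← hφ]
      exact hP t
    · exact h15 t (t ^ q) hf
    · have hcm : x 42 t * x 37 (t ^ q) = x 37 (t ^ q) * x 42 t :=
        comm_class (K := K) (i := 2) (r := 37) (s := 42) (by decide +kernel) (by decide +kernel) (by decide)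
          (by decide +kernel) _ _
      change x 42 t * x 37 (t ^ q) ∈ twistedE6 K q at hf
      change x 42 t * x 37 (t ^ q) ∈ Lo M
      rw [hcm] at hf ⊢
      exact h37 (t ^ q) t hf
    · exact h29 t (t ^ q) hf

end Steps

/-! ### the pair -/

section Core

variable [Fintype K] {q : ℕ} {φ : K →+* K} (hφ : ∀ t, φ t = t ^ q) (hqq : ∀ t : K, (t ^ q) ^ q = t)

include hφ in
theorem P_mem (a : K) : P φ a ∈ twistedE6 K q := by
  have := pair_mem (K := K) (q := q) a (rs := (56, 36)) (by simp)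
  rw [← hφ] at this
  exact this

include hφ hqq in
theorem hh_mem' (c : K) : hh φ c ∈ twistedE6 K q := by
  refine mul_mem (Cfsg.Agent.H136.TwE6.hh_mem hφ c) ?_
  have hc' : c ∈ Cfsg.Agent.KFacts.TwESix.Out.KF φ 2 := by
    have := Cfsg.Agent.KFacts.TwESix.Out.F2_eq_top hφ hqq
    show c ∈ Cfsg.Agent.Nodes.RGDFoldSL.Fx φ 2
    rw [this]
    exact Subfield.mem_top c
  have h1 := Cfsg.Agent.KFacts.TwESix.Out.coe_PhiE_hS hφ hqq 2 ⟨c, hc'⟩
  have h2 : Cfsg.Agent.Nodes.RGDFoldSL.hv (Cfsg.Agent.Nodes.RGDFoldSL.psi hE6 K) φ [42, 37]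
      (Cfsg.Agent.Nodes.RGDFoldSL.hS c) = hG hE6 42 c * hG hE6 37 (φ c) :=
    Cfsg.Agent.KFacts.TwESix.Out.hv_two (by decide) (by decide) c
  rw [← h2]
  exact h1 ▸ (Cfsg.Agent.KFacts.TwESix.Out.PhiE hφ hqq 2 (Cfsg.Agent.Nodes.RGDFoldSL.hS ⟨c, hc'⟩)).2

/-- the torus element in the coset of the diagonal automorphism -/
def bet (hφ : ∀ t, φ t = t ^ q) (hqq : ∀ t : K, (t ^ q) ^ q = t) {χ : ℕ → Kˣ} (hM : IsMul chevE6 χ) (h : Ok q χ)
    (c : K) : MulAut ↥(twistedE6 K q) :=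
  dgA (conj_mem hM h) (conj_mem' hM h) * MulAut.conj ⟨hh φ c, hh_mem' hφ hqq c⟩

theorem coe_bet {χ : ℕ → Kˣ} (hM : IsMul chevE6 χ) (h : Ok q χ) (c : K) (g : ↥(twistedE6 K q)) :
    ((bet hφ hqq hM h c g : ↥(twistedE6 K q)) : GL chevE6.Idx K) =
      (dG chevE6 χ * hh φ c) * (g : GL chevE6.Idx K) * (dG chevE6 χ * hh φ c)⁻¹ := by
  show dG chevE6 χ * (hh φ c * (g : GL chevE6.Idx K) * (hh φ c)⁻¹) * (dG chevE6 χ)⁻¹ = _
  rw [conj_conj]

/-- the semilinear monomial element -/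
noncomputable def psA (hφ : ∀ t, φ t = t ^ q) {χ : ℕ → Kˣ} (hM : IsMul chevE6 χ) (h : Ok q χ) (τ : K ≃+* K) :
    MulAut ↥(twistedE6 K q) :=
  MulAut.conj ⟨w K, w_mem hφ⟩ * (dgA (conj_mem hM h) (conj_mem' hM h) * st q τ)

theorem coe_psA {χ : ℕ → Kˣ} (hM : IsMul chevE6 χ) (h : Ok q χ) (τ : K ≃+* K) (g : ↥(twistedE6 K q)) :
    ((psA hφ hM h τ g : ↥(twistedE6 K q)) : GL chevE6.Idx K) = Psi χ τ g := by
  rw [Psi_apply]
  rfl

theorem coe_psA_inv {χ : ℕ → Kˣ} (hM : IsMul chevE6 χ) (h : Ok q χ) (τ : K ≃+* K) (g : ↥(twistedE6 K q)) :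
    (((psA hφ hM h τ)⁻¹ g : ↥(twistedE6 K q)) : GL chevE6.Idx K) = (Psi χ τ).symm g := by
  rw [MulEquiv.eq_symm_apply, ← coe_psA hφ hM h τ, MulAut.apply_inv_self]

theorem coe_del {χ : ℕ → Kˣ} (hM : IsMul chevE6 χ) (h : Ok q χ) {χ' : ℕ → Kˣ} (hM' : IsMul chevE6 χ') (h' : Ok q χ')
    (τ : K ≃+* K) (c : K) (g : ↥(twistedE6 K q)) :
    (((psA hφ hM' h' τ * bet hφ hqq hM h c * (psA hφ hM' h' τ)⁻¹) g : ↥(twistedE6 K q)) : GL chevE6.Idx K) =
      Psi χ' τ (dG chevE6 χ * hh φ c) * (g : GL chevE6.Idx K) * (Psi χ' τ (dG chevE6 χ * hh φ c))⁻¹ := by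
  show ((psA hφ hM' h' τ (bet hφ hqq hM h c ((psA hφ hM' h' τ)⁻¹ g)) : ↥(twistedE6 K q)) : GL chevE6.Idx K) = _
  rw [coe_psA, coe_bet, coe_psA_inv, map_mul, map_mul, map_inv, MulEquiv.apply_symm_apply]

/-- the short root subgroup -/
def X0 (q : ℕ) (φ : K →+* K) : Subgroup ↥(twistedE6 K q) := (XS φ).subgroupOf (twistedE6 K q)

include hqq in
theorem conj_inj (hq : IsPrimePow q) (hK : Fintype.card K = q ^ 2) {g g' : ↥(twistedE6 K q)}
    (h : (MulAut.conj g : MulAut ↥(twistedE6 K q)) = MulAut.conj g') : g = g' := by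
  have h1 : g'⁻¹ * g = 1 := by
    refine Cfsg.Agent.H166.OutTwESix.eq_one_of_central (Cfsg.Agent.S1070.result hq hK) fun y => ?_
    have h2 : g * y * g⁻¹ = g' * y * g'⁻¹ := congrArg (fun f : MulAut ↥(twistedE6 K q) => f y) h
    have h3 : g * y = g' * y * g'⁻¹ * g := by rw [← h2]; group
    rw [mul_assoc, h3]; group
  exact (inv_mul_eq_one.1 h1).symm

theorem core {χ : ℕ → Kˣ} (hM : IsMul chevE6 χ) (h : Ok q χ) {χ' : ℕ → Kˣ} (hM' : IsMul chevE6 χ') (h' : Ok q χ')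
    (τ : K ≃+* K) (hq : IsPrimePow q) (hK : Fintype.card K = q ^ 2) {c : Kˣ}
    (hc : ∀ z : Kˣ, z ∈ Subgroup.zpowers (χ 56 * c)) (hc2 : χ 42 * c ≠ 1) (hc3 : χ 56 * c ≠ 1)
    {M : Subgroup (MulAut ↥(twistedE6 K q))} (hβ : bet hφ hqq hM h (c : K) ∈ M)
    (hΨ : MulAut.conj (⟨P φ 1, P_mem hφ 1⟩ : ↥(twistedE6 K q)) * psA hφ hM' h' τ ∈ M) :
    (MulAut.conj : ↥(twistedE6 K q) →* MulAut ↥(twistedE6 K q)).range ≤ M := by
  have hφφ : ∀ t, φ (φ t) = t := by intro t; rw [hφ, hφ, hqq]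
  have hfix := twisted_le_fix φ hφ hqq
  have hc0 : (c : K) ≠ 0 := c.ne_zero
  set d := dG chevE6 χ * hh φ (c : K) with hd
  set β := bet hφ hqq hM h (c : K) with hβd
  set Ψ := psA hφ hM' h' τ with hΨd
  let Pp : K → ↥(twistedE6 K q) := fun a => ⟨P φ a, P_mem hφ a⟩
  have hP1 : ∀ a b, Pp a * Pp b = Pp (a + b) := fun a b => Subtype.ext (P_add a b)
  have hPi : ∀ a, (Pp a)⁻¹ = Pp (-a) := fun a => Subtype.ext (P_inv a)
  have hP0 : Pp 0 = 1 := Subtype.ext P_zero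
  have hPinj : ∀ a b, Pp a = Pp b → a = b := fun a b e => P_inj (congrArg Subtype.val e)
  -- the actions
  have hβP : ∀ a, β (Pp a) = Pp ((χ 56 * c : Kˣ) * a) := by
    intro a
    apply Subtype.ext
    rw [hβd, coe_bet]
    show d * P φ a * d⁻¹ = P φ _
    rw [d_P hφ hM h hc0, Units.val_mul]
  obtain ⟨κ, hκ, k1⟩ := Psi_x hM' τ (42 : Fin 72)
  obtain ⟨κ', hκ', k2⟩ := Psi_x hM' τ (37 : Fin 72)
  have w1 : W 42 = 56 ∧ W 37 = 36 := by decide +kernel
  rw [w1.1] at k1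
  rw [w1.2] at k2
  change ∀ a, Psi χ' τ (x 42 a) = x 56 (κ * τ a) at k1
  change ∀ a, Psi χ' τ (x 37 a) = x 36 (κ' * τ a) at k2
  have hQm : ∀ a, Q φ a ∈ twistedE6 K q := by
    intro a
    have := pair_mem (K := K) (q := q) a (rs := (42, 37)) (by simp)
    rw [← hφ] at this
    exact this
  have hΨQ : ∀ a, Psi χ' τ (Q φ a) = P φ (κ * τ a) := by
    intro a
    have e : Psi χ' τ (Q φ a) = x 56 (κ * τ a) * x 36 (κ' * τ (φ a)) := by
      rw [← k1, ← k2, ← map_mul]; rfl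
    have h1 : x 56 (κ * τ a) * x 36 (κ' * τ (φ a)) ∈ fix φ := by
      rw [← e, ← coe_psA hφ hM' h' τ ⟨Q φ a, hQm a⟩]
      exact hfix (Subtype.property _)
    rw [e, fix56 h1]
    rfl
  let δ := Ψ * β * Ψ⁻¹
  have hδ : ∀ g : ↥(twistedE6 K q), ((δ g : ↥(twistedE6 K q)) : GL chevE6.Idx K) =
      Psi χ' τ d * (g : GL chevE6.Idx K) * (Psi χ' τ d)⁻¹ := fun g => coe_del hφ hqq hM h hM' h' τ _ g
  have hδP : ∀ a, δ (Pp a) = Pp (τ (χ 42 * c : Kˣ) * a) := by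
    intro a
    apply Subtype.ext
    rw [hδ]
    show Psi χ' τ d * P φ a * (Psi χ' τ d)⁻¹ = P φ _
    have e : P φ a = Psi χ' τ (Q φ (τ.symm (κ⁻¹ * a))) := by
      rw [hΨQ, τ.apply_symm_apply, mul_inv_cancel_left₀ hκ]
    rw [e, ← map_inv, ← map_mul, ← map_mul, hd, d_Q hφ hM h hc0, hΨQ, map_mul, τ.apply_symm_apply, Units.val_mul]
    congr 1
    rw [mul_left_comm, mul_inv_cancel_left₀ hκ]
  -- the torus trick
  let X : Subgroup (MulAut ↥(twistedE6 K q)) := (X0 q φ).map MulAut.conj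
  have hX : ∀ y, y ∈ X ↔ ∃ a, y = MulAut.conj (Pp a) := by
    intro y
    constructor
    · rintro ⟨g, ⟨a, ha⟩, rfl⟩
      exact ⟨a, congrArg _ (Subtype.ext ha)⟩
    · rintro ⟨a, rfl⟩
      exact ⟨Pp a, ⟨a, rfl⟩, rfl⟩
  have hcj : ∀ (f : MulAut ↥(twistedE6 K q)) (g : ↥(twistedE6 K q)), f * MulAut.conj g * f⁻¹ = MulAut.conj (f g) :=
    conj_apply_mul
  have hinj : ∀ a b, (MulAut.conj (Pp a) : MulAut ↥(twistedE6 K q)) = MulAut.conj (Pp b) → a = b :=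
    fun a b e => hPinj a b (conj_inj hqq hq hK e)
  have hτ0 : τ ((χ 42 * c : Kˣ) : K) ≠ 0 := (map_ne_zero τ).2 (Units.ne_zero _)
  have hτ1 : τ ((χ 42 * c : Kˣ) : K) ≠ 1 := by
    intro e
    apply hc2
    apply Units.ext
    apply τ.injective
    rw [e, Units.val_one, map_one]
  obtain ⟨hXM, hΨM⟩ := Cfsg.Agent.H136.TwoGen.torus_trick M X (h := β) (w := Ψ)
    (u := MulAut.conj (Pp 1)) hβ hΨ ((hX _).2 ⟨1, rfl⟩)
    (by
      intro y hy
      obtain ⟨a, rfl⟩ := (hX y).1 hy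
      rw [hX, hcj]
      exact ⟨_, congrArg _ (hδP a)⟩)
    (by
      intro y hy
      obtain ⟨a, rfl⟩ := (hX y).1 hy
      rw [hX]
      refine ⟨(τ ((χ 42 * c : Kˣ) : K))⁻¹ * a, ?_⟩
      have h1 := hcj δ (Pp ((τ ((χ 42 * c : Kˣ) : K))⁻¹ * a))
      rw [hδP, mul_inv_cancel_left₀ hτ0] at h1
      rw [← h1]
      show δ⁻¹ * _ * δ = _
      group)
    (by
      intro Y hY hinv
      let A : AddSubgroup K :=
        { carrier := {a | MulAut.conj (Pp a) ∈ Y}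
          add_mem' := by
            intro a b ha hb
            show MulAut.conj (Pp (a + b)) ∈ Y
            rw [← hP1, map_mul]
            exact Y.mul_mem ha hb
          zero_mem' := by
            show MulAut.conj (Pp 0) ∈ Y
            rw [hP0, map_one]
            exact Y.one_mem
          neg_mem' := by
            intro a ha
            show MulAut.conj (Pp (-a)) ∈ Y
            rw [← hPi, map_inv]
            exact Y.inv_mem ha }
      have hA : ∀ a ∈ A, ((χ 56 * c : Kˣ) : K) * a ∈ A := by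
        intro a ha
        have h1 := hinv _ ha
        rw [hcj, hβP] at h1
        exact h1
      rcases Cfsg.Agent.H136.FieldLem.eq_bot_or_top hc A (fun a ha => by
        rw [pow_two, mul_assoc]
        exact hA _ (hA _ ha)) with h1 | h1
      · left
        rw [eq_bot_iff]
        intro y hy
        obtain ⟨a, rfl⟩ := (hX y).1 (hY hy)
        have h2 : a ∈ A := hy
        rw [h1, AddSubgroup.mem_bot] at h2
        rw [h2, hP0, map_one]
        exact Subgroup.mem_bot.2 rfl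
      · right
        refine le_antisymm hY fun y hy => ?_
        obtain ⟨a, rfl⟩ := (hX y).1 hy
        have h2 : a ∈ A := by rw [h1]; exact AddSubgroup.mem_top a
        exact h2)
    ⟨MulAut.conj (Pp 1), (hX _).2 ⟨1, rfl⟩, fun e => by
      have h1 := hcj β (Pp 1)
      rw [e, mul_inv_cancel_right, hβP, mul_one] at h1
      apply hc3
      apply Units.ext
      rw [Units.val_one]
      exact (hinj _ _ h1).symm⟩
    (by
      intro y hy
      obtain ⟨a, rfl⟩ := (hX y).1 hy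
      rw [hX, hcj]
      exact ⟨_, congrArg _ (hβP a)⟩)
    (by
      show β * δ = δ * β
      ext g
      show ((β (δ g) : ↥(twistedE6 K q)) : GL chevE6.Idx K) _ _ = ((δ (β g) : ↥(twistedE6 K q)) : GL chevE6.Idx K) _ _
      have h1 : ((β (δ g) : ↥(twistedE6 K q)) : GL chevE6.Idx K) = (δ (β g) : ↥(twistedE6 K q)) := by
        rw [hδ, hβd, coe_bet, coe_bet, hδ]
        exact Sc.comm (Sc_d hM hc0) (Psi_Sc hM' τ (Sc_d hM hc0)) g.2
      rw [h1])
    (fun e => by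
      have h1 := hcj δ (Pp 1)
      have e' : δ * MulAut.conj (Pp 1) = MulAut.conj (Pp 1) * δ := e
      rw [e', mul_inv_cancel_right, hδP, mul_one] at h1
      exact hτ1 (hinj _ _ h1).symm)
  -- closure steps
  have hle := le_Lo hM' τ (M := M) (Ψ := Ψ) hΨM (coe_psA hφ hM' h' τ) hφ hqq hq.two_le hK (fun a => by
    rw [mem_Lo]
    exact ⟨P_mem hφ a, hXM ((hX _).2 ⟨a, rfl⟩)⟩)
  rintro _ ⟨g, rfl⟩
  obtain ⟨hg, h2⟩ := mem_Lo.1 (hle g.2)
  exact h2

end Core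

end Cfsg.Agent.H157.DG.TwE6
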