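import Cfsg.Agent.H157.DG.TwE6
import Cfsg.Agent.H157.DG.Euclid

/-!
# S4180, task C18: `Cos2` for `²E₆(q)`, the automorphisms (helper157)
-/

set_option autoImplicit false
set_option linter.unusedSectionVars false
set_option maxHeartbeats 400000

namespace Cfsg.Agent.H157.DG.TwE6

open CoxeterSystem Cfsg.Agent.ChevalleyStructure.CoxeterGeom Cfsg.Agent.Tits.Roots Cfsg.Agent.Tits.Core
  Cfsg.Agent.Tits.Exchange Cfsg.Agent.Nodes.Reps Cfsg.Agent.Nodes.BNOf Cfsg.Agent.Nodes.StabComb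
  Cfsg.Agent.Nodes.Bruhat Cfsg.Agent.Nodes.OppDec Cfsg.Agent.Nodes.RGDTwGen Cfsg.Agent.Nodes.RGDChev
  Cfsg.Agent.Nodes.RGDFold Cfsg.Agent.Nodes.RGDFoldSL
open Cfsg.Agent.KFacts.RgdOpp Cfsg.Agent.KFacts.RgdAut Cfsg.Agent.KFacts.RgdDiag Cfsg.Agent.KFacts.RgdRigid
  Cfsg.Agent.KFacts.RgdField Cfsg.Agent.KFacts.RgdTau Cfsg.Agent.KFacts.RgdNodes
open Cfsg.Lie Cfsg.Agent.ChevalleyStructure Cfsg.Agent.ChevalleyStructure.Elts Cfsg.Agent.ChevStructure.FieldMap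
open Cfsg.Agent.ChevalleyStructure.SL2Hom (up lo)
open Cfsg.Agent.KFacts.TwESix.NodeCoord Cfsg.Agent.KFacts.TwESix.Out Cfsg.Agent.KFacts.TwESix.OutTwo
open Cfsg.Agent.Nodes.RGDTwE6 Cfsg.Agent.Nodes.RGDTwNode.E6
open Cfsg.Agent.ChevalleyStructure.TwE6Basic (hE6 single_mem pair_mem twisted_le_iff exists_frob twisted_le_fix)
open Cfsg.Agent.H70.ChevDiag Cfsg.Agent.H166.TwDiag Cfsg.Agent.H166.OutNodes Cfsg.Agent.H166.OutRGD
open Cfsg.Agent.CpAut.RgdTwE6 (st rs st_up ntau_st ntau_of_ftau tau_phi coe_up)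
open Cfsg.Agent.H166.OutTwESix (Ok conj_mem conj_mem' simple_tab diag_dgA)
open Cfsg.Agent.H891.Gen Cfsg.Agent.H891.DG

open scoped Pointwise

universe u

variable {K : Type u} [Field K] [Fintype K] {q : ℕ} {φ : K →+* K} (hφ : ∀ x, φ x = x ^ q)
  (hqq : ∀ t : K, (t ^ q) ^ q = t) {W : Type*} [Group W] (cs : CoxeterSystem CoxeterMatrix.F₄ W)

include hφ hqq in
theorem exists_dgA (c : ∀ i, (KF φ i)ˣ) : ∃ (χ : ℕ → Kˣ) (hM : IsMul chevE6 χ) (hok : Ok q χ),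
    ∀ i a, dgA (conj_mem hM hok) (conj_mem' hM hok) (PhiE hφ hqq i (up a)) =
      PhiE hφ hqq i (up ((c i : KF φ i) * a)) := by
  let v : Fin 4 → Kˣ := fun i => Units.map ((KF φ i).subtype : KF φ i →* K) (c i)
  have hv : ∀ i, (v i : K) = ((c i : KF φ i) : K) := fun i => rfl
  let c' : Fin 6 → Kˣ := ![v 3, v 0, v 2, v 1, v 2 ^ q, v 3 ^ q]
  obtain ⟨χ, hM, h1, h2⟩ := exists_diagAut hE6 (F := K) c'
  have e0 : χ 56 = v 3 := by have := h1 (0 : Fin 6); rwa [(simple_tab 0).1] at this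
  have e1 : χ 46 = v 0 := by have := h1 (1 : Fin 6); rwa [(simple_tab 1).1] at this
  have e2 : χ 42 = v 2 := by have := h1 (2 : Fin 6); rwa [(simple_tab 2).1] at this
  have e3 : χ 39 = v 1 := by have := h1 (3 : Fin 6); rwa [(simple_tab 3).1] at this
  have e4 : χ 37 = v 2 ^ q := by have := h1 (4 : Fin 6); rwa [(simple_tab 4).1] at this
  have e5 : χ 36 = v 3 ^ q := by have := h1 (5 : Fin 6); rwa [(simple_tab 5).1] at this
  have n0 : χ 15 = (v 3)⁻¹ := by have := h2 (0 : Fin 6); rwa [(simple_tab 0).2] at this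
  have n1 : χ 25 = (v 0)⁻¹ := by have := h2 (1 : Fin 6); rwa [(simple_tab 1).2] at this
  have n2 : χ 29 = (v 2)⁻¹ := by have := h2 (2 : Fin 6); rwa [(simple_tab 2).2] at this
  have n3 : χ 32 = (v 1)⁻¹ := by have := h2 (3 : Fin 6); rwa [(simple_tab 3).2] at this
  have n4 : χ 34 = (v 2 ^ q)⁻¹ := by have := h2 (4 : Fin 6); rwa [(simple_tab 4).2] at this
  have n5 : χ 35 = (v 3 ^ q)⁻¹ := by have := h2 (5 : Fin 6); rwa [(simple_tab 5).2] at this
  have f0 : v 0 ^ q = v 0 := by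
    apply Units.ext
    rw [Units.val_pow_eq_pow_val, ← hφ, hv]
    have := (c 0 : KF φ 0).2
    rwa [mem_Fx] at this
  have f1 : v 1 ^ q = v 1 := by
    apply Units.ext
    rw [Units.val_pow_eq_pow_val, ← hφ, hv]
    have := (c 1 : KF φ 1).2
    rwa [mem_Fx] at this
  have hok : Ok q χ := by
    constructor
    · intro r hr
      simp only [List.mem_cons, List.not_mem_nil, or_false] at hr
      rcases hr with rfl | rfl | rfl | rfl
      · rw [e1, f0]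
      · rw [n1, inv_pow, f0]
      · rw [e3, f1]
      · rw [n3, inv_pow, f1]
    · intro r hr
      simp only [List.mem_cons, List.not_mem_nil, or_false] at hr
      rcases hr with rfl | rfl | rfl | rfl
      · show χ 36 = χ 56 ^ q
        rw [e5, e0]
      · show χ 35 = χ 15 ^ q
        rw [n5, n0, inv_pow]
      · show χ 37 = χ 42 ^ q
        rw [e4, e2]
      · show χ 34 = χ 29 ^ q
        rw [n4, n2, inv_pow]
  refine ⟨χ, hM, hok, fun i a => ?_⟩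
  apply Subtype.ext
  rw [coe_dgA, coe_up, coe_up, conj_yv hE6 hM (c := ((c i : KF φ i) : K))]
  · rfl
  intro k hk
  have hi : i = 0 ∨ i = 1 ∨ i = 2 ∨ i = 3 := by fin_cases i <;> simp
  rcases hi with rfl | rfl | rfl | rfl
  · have hk' : k < 1 := hk
    obtain rfl : k = 0 := by omega
    show (χ 46 : K) = _
    rw [e1]; rfl
  · have hk' : k < 1 := hk
    obtain rfl : k = 0 := by omega
    show (χ 39 : K) = _
    rw [e3]; rfl
  · have hk' : k < 2 := hk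
    have hk2 : k = 0 ∨ k = 1 := by omega
    rcases hk2 with rfl | rfl
    · show (χ 42 : K) = _
      rw [e2]; rfl
    · show (χ 37 : K) = φ _
      rw [e4, hφ, Units.val_pow_eq_pow_val]; rfl
  · have hk' : k < 2 := hk
    have hk2 : k = 0 ∨ k = 1 := by omega
    rcases hk2 with rfl | rfl
    · show (χ 56 : K) = _
      rw [e0]; rfl
    · show (χ 36 : K) = φ _
      rw [e5, hφ, Units.val_pow_eq_pow_val]; rfl

include cs in
theorem form_of_ftau [Finite W] (p : ℕ) [Fact p.Prime] [CharP K p] {β : MulAut ↥(twistedE6 K q)} {τ : K ≃+* K}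
    (S : FTau hφ hqq β τ) : ∃ (χ : ℕ → Kˣ) (hM : IsMul chevE6 χ) (hok : Ok q χ),
      β = dgA (conj_mem hM hok) (conj_mem' hM hok) * st q τ := by
  have R := Cfsg.Agent.Nodes.RGDTwE6.rgd cs hφ hqq p
  have N := ntau_of_ftau hφ hqq S
  have h4 := fun i => NTau.semi (coordE hφ hqq) N i
  choose c hc hx using h4
  obtain ⟨χ, hM, hok, hy⟩ := exists_dgA hφ hqq (fun i => Units.mk0 (c i) (hc i))
  refine ⟨χ, hM, hok, ?_⟩
  have D' := (diag_dgA hφ hqq hM hok).mul (ntau_st hφ hqq τ cs p).diag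
  rw [mul_one] at D'
  have D'' : Diag (T K q) (X φ q) (β⁻¹ * (dgA (conj_mem hM hok) (conj_mem' hM hok) * st q τ)) 1 := by
    have := N.diag.inv.mul D'
    rwa [inv_one, mul_one] at this
  have h5 := Diag.eq_one R (G1_top cs hφ hqq) D'' (by
    intro i y hy'
    obtain ⟨a, rfl⟩ := ((coordE hφ hqq i).mem y).1 hy'
    rw [MulAut.mul_apply, MulAut.mul_apply]
    show β⁻¹ (dgA (conj_mem hM hok) (conj_mem' hM hok) (st q τ (PhiE hφ hqq i (up a)))) = PhiE hφ hqq i (up a)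
    rw [st_up, hy]
    have h6 : β (PhiE hφ hqq i (up a)) = PhiE hφ hqq i (up (c i * rs hφ τ i a)) := hx i a
    show β⁻¹ (PhiE hφ hqq i (up (c i * rs hφ τ i a))) = _
    rw [← h6, MulAut.inv_apply_self])
  exact inv_mul_eq_one.1 h5

/-- the exponent relation -/
def Ex (σ : K ≃+* K) (α : MulAut ↥(twistedE6 K q)) (a : ℤ) : Prop :=
  ∃ (g : ↥(twistedE6 K q)) (β : MulAut ↥(twistedE6 K q)), FTau hφ hqq β (σ ^ a) ∧ α = MulAut.conj g * β

theorem FTau.inv {β : MulAut ↥(twistedE6 K q)} {τ : K ≃+* K} (S : FTau hφ hqq β τ) : FTau hφ hqq β⁻¹ τ⁻¹ where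
  diag := by
    have := S.diag.inv
    rwa [inv_one] at this
  char i t ht := by
    have D := S.diag.inv
    have h1 : β⁻¹ t ∈ T K q := (D.tor t).2 ht
    have h2 := S.char i _ h1
    rw [MulAut.apply_inv_self] at h2
    rw [h2]
    exact (τ.symm_apply_apply _).symm

theorem Ex.inv {σ : K ≃+* K} {α : MulAut ↥(twistedE6 K q)} {a : ℤ} (h : Ex hφ hqq σ α a) :
    Ex hφ hqq σ α⁻¹ (-a) := by
  obtain ⟨g, β, S, rfl⟩ := h
  refine ⟨β⁻¹ g⁻¹, β⁻¹, ?_, ?_⟩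
  · rw [zpow_neg]
    exact TwE6.FTau.inv hφ hqq S
  · rw [← conj_apply_mul, mul_inv_rev, ← map_inv]
    group

theorem Ex.mul {σ : K ≃+* K} {α α' : MulAut ↥(twistedE6 K q)} {a b : ℤ} (h : Ex hφ hqq σ α a)
    (h' : Ex hφ hqq σ α' b) : Ex hφ hqq σ (α * α') (a + b) := by
  obtain ⟨g, β, S, rfl⟩ := h
  obtain ⟨g', β', S', rfl⟩ := h'
  refine ⟨g * β g', β * β', ?_, ?_⟩
  · rw [zpow_add]
    exact FTau.mul hφ hqq S S'
  · rw [map_mul, ← conj_apply_mul]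
    group

include cs in
theorem exists_ex [Finite W] (p : ℕ) [Fact p.Prime] [CharP K p] (hK : Fintype.card K = q ^ 2) (hq1 : 1 < q)
    {σ : K ≃+* K} (hσ : ∀ τ : K ≃+* K, ∃ a : ℤ, τ = σ ^ a) (α : MulAut ↥(twistedE6 K q)) :
    ∃ a, Ex hφ hqq σ α a := by
  have R := Cfsg.Agent.Nodes.RGDTwE6.rgd cs hφ hqq p
  have hG : GG cs isCartan (T K q) (X φ q) = ⊤ := GG_eq_top (G1_top cs hφ hqq)
  let S : Sylow p ↥(twistedE6 K q) := R.isPGroup_Upos.toSylow (not_dvd_index hφ hqq cs p)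
  have hS : (S : Subgroup ↥(twistedE6 K q)) = RGD.Sup (X φ q) (RGD.Pos cs isCartan) := rfl
  obtain ⟨y, hy⟩ := MulAction.exists_smul_eq ↥(twistedE6 K q) (α • S) S
  have h1 : (S : Subgroup ↥(twistedE6 K q)).map (MulAut.conj y * α).toMonoidHom = S := by
    have h2 := congrArg (fun S : Sylow p ↥(twistedE6 K q) => (S : Subgroup ↥(twistedE6 K q))) hy
    simp only [Sylow.smul_def, Sylow.pointwise_smul_def] at h2
    rw [smul_smul] at h2
    exact h2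
  have h2 : Fix (MulAut.conj y * α) (RGD.Sup (X φ q) (RGD.Pos cs isCartan)) := by
    rw [fix_iff, ← hS]
    exact h1
  obtain ⟨u, hu, h3, -, h4, -⟩ := exists_frame R hG h2
  set β := MulAut.conj u * (MulAut.conj y * α) with hβ
  obtain ⟨s, D⟩ := exists_diag R hG h3 h4
  have h5 : s = 1 := by
    apply perm_F4 s (D.matrix R)
    intro h6
    have h7 := (Diag.card_eq D) 0
    rw [h6] at h7
    exact card_ne hφ hqq hK hq1 h7
  subst h5
  obtain ⟨τ, F⟩ := exists_ftau hφ hqq cs p D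
  obtain ⟨a, rfl⟩ := hσ τ
  refine ⟨a, (u * y)⁻¹, β, F, ?_⟩
  rw [hβ, map_inv, map_mul]
  group

/-- the choice of the torus element -/
theorem exists_c (hK : Fintype.card K = q ^ 2) (hq1 : 1 < q) (a b : Kˣ) :
    ∃ c : Kˣ, (∀ z : Kˣ, z ∈ Subgroup.zpowers (a * c)) ∧ b * c ≠ 1 ∧ a * c ≠ 1 := by
  obtain ⟨g, hg⟩ := IsCyclic.exists_generator (α := Kˣ)
  have hord : orderOf g = q ^ 2 - 1 := by
    rw [orderOf_eq_card_of_forall_mem_zpowers hg, Nat.card_units, Nat.card_eq_fintype_card, hK]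
  have h4 : 4 ≤ q ^ 2 := by nlinarith
  have hg2 : g ^ 2 ≠ 1 := by
    intro h1
    have := Nat.le_of_dvd (by norm_num) (orderOf_dvd_of_pow_eq_one h1)
    omega
  have hg1 : g ≠ 1 := by
    rintro rfl
    exact hg2 (one_pow 2)
  by_cases hb : b * (a⁻¹ * g) = 1
  · refine ⟨a⁻¹ * g⁻¹, ?_, ?_, ?_⟩
    · intro z
      rw [mul_inv_cancel_left, Subgroup.zpowers_inv]
      exact hg z
    · intro h
      apply hg2
      have h1 : b * (a⁻¹ * g) = b * (a⁻¹ * g⁻¹) := by rw [hb, h]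
      have h2 := mul_left_cancel (mul_left_cancel h1)
      rw [pow_two]
      nth_rewrite 1 [h2]
      exact inv_mul_cancel g
    · rw [mul_inv_cancel_left]
      exact fun h => hg1 (inv_eq_one.1 h)
  · refine ⟨a⁻¹ * g, ?_, hb, ?_⟩
    · intro z
      rw [mul_inv_cancel_left]
      exact hg z
    · rw [mul_inv_cancel_left]
      exact hg1

include hφ hqq in
theorem cos2_aux (hq : IsPrimePow q) (hK : Fintype.card K = q ^ 2) : Cos2 ↥(twistedE6 K q) := by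
  obtain ⟨p, hp⟩ := CharP.exists K
  have hpp : Nat.Prime p := (CharP.char_is_prime_or_zero K p).resolve_right (CharP.char_ne_zero_of_finite K p)
  have : Fact p.Prime := ⟨hpp⟩
  have hW : Finite CoxeterMatrix.F₄.Group :=
    Cfsg.Agent.Nodes.RGDFold.finite_W (hp := Cfsg.Agent.Nodes.RGDTwE6.hp) CoxeterMatrix.F₄.toCoxeterSystem
      Cfsg.Agent.Nodes.RGDTwE6.isCartan Cfsg.Agent.Nodes.RGDTwE6.foldData
  obtain ⟨σ, hσ⟩ := exists_gen K
  intro x y
  obtain ⟨a, ha⟩ := exists_ex hφ hqq CoxeterMatrix.F₄.toCoxeterSystem p hK hq.one_lt hσ x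
  obtain ⟨b, hb⟩ := exists_ex hφ hqq CoxeterMatrix.F₄.toCoxeterSystem p hK hq.one_lt hσ y
  refine lift_of_rel (Ex hφ hqq σ) (fun _ _ h => h.inv hφ hqq) (fun _ _ _ _ h h' => h.mul hφ hqq h') ?_ x y a b ha hb
  clear ha hb a b x y
  rintro _ _ b ⟨g, β, S, rfl⟩ ⟨g', β', S', rfl⟩
  rw [zpow_zero] at S
  obtain ⟨χ, hM, hok, hβ⟩ := form_of_ftau hφ hqq CoxeterMatrix.F₄.toCoxeterSystem p S
  obtain ⟨χ', hM', hok', hβ'⟩ := form_of_ftau hφ hqq CoxeterMatrix.F₄.toCoxeterSystem p S'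
  have hst : st q (1 : K ≃+* K) = 1 := by
    ext g
    show (Cfsg.Agent.CpAut.RgdTwStd.fldG (1 : K ≃+* K) _ g : GL chevE6.Idx K) _ _ = (g : GL chevE6.Idx K) _ _
    rw [Cfsg.Agent.CpAut.RgdTwStd.coe_fldG, Cfsg.Agent.CpAut.RgdTwStd.glE_one]
  rw [hst, mul_one] at hβ
  obtain ⟨c, hc1, hc2, hc3⟩ := exists_c hK hq.one_lt (χ 56) (χ 42)
  -- the two members
  have e1 : ∃ s ∈ (MulAut.conj : ↥(twistedE6 K q) →* _).range, MulAut.conj g * β * s = bet hφ hqq hM hok (c : K) := by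
    refine ⟨(MulAut.conj g * β)⁻¹ * bet hφ hqq hM hok (c : K), ?_, by group⟩
    have e : (MulAut.conj g * β)⁻¹ * bet hφ hqq hM hok (c : K) =
        β⁻¹ * MulAut.conj g⁻¹ * β⁻¹⁻¹ * MulAut.conj ⟨hh φ c, hh_mem' hφ hqq c⟩ := by
      rw [bet, ← hβ, map_inv]
      group
    rw [e, conj_apply_mul, ← map_mul]
    exact ⟨_, rfl⟩
  have e2 : ∃ s ∈ (MulAut.conj : ↥(twistedE6 K q) →* _).range, MulAut.conj g' * β' * s =
      MulAut.conj (⟨Cfsg.Agent.H136.TwE6.P φ 1, P_mem hφ 1⟩ : ↥(twistedE6 K q)) * psA hφ hM' hok' (σ ^ b) := by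
    refine ⟨(MulAut.conj g' * β')⁻¹ * (MulAut.conj (⟨Cfsg.Agent.H136.TwE6.P φ 1, P_mem hφ 1⟩ : ↥(twistedE6 K q)) *
      psA hφ hM' hok' (σ ^ b)), ?_, by group⟩
    have e : (MulAut.conj g' * β')⁻¹ * (MulAut.conj (⟨Cfsg.Agent.H136.TwE6.P φ 1, P_mem hφ 1⟩ : ↥(twistedE6 K q)) *
      psA hφ hM' hok' (σ ^ b)) = β'⁻¹ * MulAut.conj (g'⁻¹ * (⟨Cfsg.Agent.H136.TwE6.P φ 1, P_mem hφ 1⟩ *
        ⟨Cfsg.Agent.H136.TwE6.w K, Cfsg.Agent.H136.TwE6.w_mem hφ⟩)) * β'⁻¹⁻¹ := by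
      rw [psA, ← hβ', map_mul, map_mul, map_inv]
      group
    rw [e, conj_apply_mul]
    exact ⟨_, rfl⟩
  obtain ⟨s, hs, e1⟩ := e1
  obtain ⟨t, ht, e2⟩ := e2
  refine ⟨s, hs, t, ht, ?_⟩
  rw [e1, e2]
  exact core hφ hqq hM hok hM' hok' (σ ^ b) hq hK hc1 hc2 hc3 (Subgroup.subset_closure (by simp))
    (Subgroup.subset_closure (by simp))

/-- **`Cos2` for `²E₆(q)`.** -/
theorem cos2_twistedE6 (hq : IsPrimePow q) (hK : Fintype.card K = q ^ 2) : Cos2 ↥(twistedE6 K q) := by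
  obtain ⟨φ, hφ, hqq⟩ := exists_frob hq hK
  exact cos2_aux hφ hqq hq hK

/-- **Task C18**: the row `twE6` of `Rows Cos2`. -/
theorem cos2_row_twE6 (T : Type u) [Group T] [Finite T] [IsSimpleGroup T] (h : Cfsg.Lie.Iso2E6 T) : Cos2 T := by
  obtain ⟨K, _, _, q, hq, hK, ⟨e⟩⟩ := h
  exact cos2_congr e.symm (cos2_twistedE6 hq hK)

end Cfsg.Agent.H157.DG.TwE6
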